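import Mathlib
import Cfsg.Agent.Class.U.Invol3
import Cfsg.Agent.KSG.AutPSU
import Cfsg.Agent.KSG.AutPSL3

/-! HKS/LvlU, step 1 and 2: a faithful group with a normal doubly transitive `PSU₃(q)` of degree
`q³ + 1` acts on the isotropic points by semilinear isometries. -/

set_option autoImplicit false
set_option linter.unusedSectionVars false

namespace Cfsg.Agent.HKS.U3

open Cfsg Subgroup Cfsg.Agent.Class.U

variable {F : Type} [Field F] {q : ℕ} [hU : UF F q] {G Ω : Type} [Group G] [MulAction G Ω]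

local notation "σ" => conj F q
local notation "𝐡" => hermForm 3 F q

/-- a nonzero isotropic vector -/
def Iso (q : ℕ) (v : Fin 3 → F) : Prop := v ≠ 0 ∧ hermForm 3 F q v v = 0

/-- a semilinear isometry -/
structure SI (q : ℕ) (τ : F ≃+* F) (T : (Fin 3 → F) ≃ (Fin 3 → F)) : Prop where
  add : ∀ u v, T (u + v) = T u + T v
  smul : ∀ (c : F) v, T (c • v) = τ c • T v
  herm : ∀ u v, hermForm 3 F q (T u) (T v) = τ (hermForm 3 F q u v)
  su : ∀ a : SU 3 F q, ∃ b : SU 3 F q, ∀ v, b • T v = T (a • v)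

/-- the natural action -/
structure UM (ψ : SU 3 F q →* G) (pt : (Fin 3 → F) → Ω) : Prop where
  faith : ∀ g : G, (∀ c : Ω, g • c = c) → g = 1
  eq : ∀ {u v}, Iso q u → Iso q v → (pt u = pt v ↔ ∃ c : F, v = c • u)
  sur : ∀ x, ∃ v, Iso q v ∧ pt v = x
  psi : ∀ a {v}, Iso q v → ψ a • pt v = pt (a • v)
  act : ∀ g : G, ∃ τ T, SI q τ T ∧ ∀ v, Iso q v → g • pt v = pt (T v)

variable {u v e n f : Fin 3 → F} {τ : F ≃+* F} {T : (Fin 3 → F) ≃ (Fin 3 → F)}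

theorem Iso.act (h : Iso q v) (a : SU 3 F q) : Iso q (a • v) :=
  ⟨fun r => h.1 (by rw [← inv_smul_smul a v, r, ← zero_smul F (0 : Fin 3 → F), SU_smul_comm]; simp),
    by rw [SU_herm, h.2]⟩

theorem Iso.smul (h : Iso q v) {c : F} (hc : c ≠ 0) : Iso q (c • v) :=
  ⟨smul_ne_zero hc h.1, by rw [herm_smul_left, herm_smul_right, h.2, mul_zero, mul_zero]⟩

theorem SI.zero (h : SI q τ T) : T 0 = 0 := by simpa using h.add 0 0

theorem SI.iso (h : SI q τ T) : Iso q (T v) ↔ Iso q v := by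
  rw [Iso, Iso, h.herm, map_eq_zero, ← h.zero, T.injective.ne_iff, h.zero]

theorem aut_conj (τ : F ≃+* F) (x : F) : τ (σ x) = σ (τ x) := by
  rw [conj_apply, conj_apply, map_pow]

theorem siegel_pow {w : Fin 3 → F} {a : F} {g : SU 3 F q} (he : 𝐡 e e = 0) (hw : 𝐡 w e = 0)
    (h : IsSiegel e w a g) (k : ℕ) :
    ∃ a', IsSiegel e ((k : F) • w) a' (g ^ k) ∧ (w = 0 → a' = k * a) := by
  induction k with
  | zero => exact ⟨0, by simpa using isSiegel_one e, by simp⟩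
  | succ k ih =>
    obtain ⟨a', h1, h2⟩ := ih
    refine ⟨_, by
      simpa [pow_succ, add_smul] using h1.mul h he (by rw [herm_smul_left, hw, mul_zero]) hw, ?_⟩
    rintro rfl
    simp [h2, herm_zero_left, add_mul]

theorem pow_of_fix {p : ℕ} [CharP F p] (he : Iso q e) {g : SU 3 F q} (h : g • e = e) :
    g ^ p ^ 2 = 1 := by
  obtain ⟨n, f, hf⟩ := exists_fr he.1 he.2
  obtain ⟨c, a, h1⟩ := hf.isSiegel_of_fix h
  obtain ⟨a', h2, -⟩ := siegel_pow he.2 (by rw [herm_smul_left, hf.ne, mul_zero]) h1 p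
  rw [CharP.cast_eq_zero, zero_smul] at h2
  obtain ⟨a'', h3, h4⟩ := siegel_pow he.2 (herm_zero_left _) h2 p
  rw [h4 rfl, CharP.cast_eq_zero, zero_smul, zero_mul, ← pow_mul, ← sq] at h3
  exact h3.unique (isSiegel_one e)

theorem exists_move (hu : Iso q u) (hv : Iso q v) (h : ¬ ∃ c : F, v = c • u) :
    ∃ a : SU 3 F q, a • u = u ∧ ¬ ∃ c : F, a • v = c • v := by
  obtain ⟨c, c0, hc⟩ := exists_trace_zero F q
  obtain ⟨a, ha⟩ := exists_transvection hu.2 hc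
  refine ⟨a, by simp [ha.smul_zero_vec, hu.2], fun ⟨m, hm⟩ => h ?_⟩
  obtain ⟨l, rfl⟩ := par_of_transv_fix ha c0 hu.2 hv.1 hv.2 hm
  exact ⟨l⁻¹, by rw [smul_smul, inv_mul_cancel₀ (by rintro rfl; simpa using hu.1), one_smul]⟩

theorem exists_pt [Finite Ω] (ψ : SU 3 F q →* G) (hc : Nat.card Ω = q ^ 3 + 1)
    (h2 : ∀ a b c d : Ω, a ≠ b → c ≠ d → ∃ g, ψ g • a = c ∧ ψ g • b = d) :
    ∃ pt : (Fin 3 → F) → Ω, (∀ {u v}, Iso q u → Iso q v → (pt u = pt v ↔ ∃ c : F, v = c • u)) ∧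
      (∀ x, ∃ v, Iso q v ∧ pt v = x) ∧ ∀ a {v}, Iso q v → ψ a • pt v = pt (a • v) := by
  classical
  let _ : MulAction (SU 3 F q) Ω := .compHom _ ψ
  obtain ⟨p, k, hp, _, hq, hk⟩ := exists_prime_pow F q
  have := Fact.mk hp
  obtain ⟨e, he⟩ : ∃ e : Fin 3 → F, Iso q e := exists_isotropic (by norm_num)
  have tr : ∀ {u v : Fin 3 → F}, Iso q u → Iso q v → ∃ a : SU 3 F q, a • u = v := fun hu hv =>
    exists_SU_smul_eq le_rfl hu.1 hv.1 hu.2 hv.2
  obtain ⟨x, hx⟩ := IsPGroup.nonempty_fixed_point_of_prime_not_dvd_card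
    (G := MulAction.stabilizer (SU 3 F q) e) (p := p) (fun g => ⟨2, Subtype.ext (pow_of_fix he g.2)⟩) Ω
    (by rw [hc, hq, ← pow_mul, Nat.dvd_add_right (dvd_pow_self p (by omega))]; simp [hp.ne_one])
  replace hx : ∀ a : SU 3 F q, a • e = e → ψ a • x = x := fun a ha => hx ⟨a, ha⟩
  have nt : Nontrivial Ω := Finite.one_lt_card_iff_nontrivial.1 (by
    have := pow_pos (two_le_q F q |>.trans_lt' two_pos) 3; omega)
  obtain ⟨y, hy⟩ := exists_ne x
  have h3 : ∀ m : SU 3 F q, ψ m • x = x → ∃ c : F, m • e = c • e := fun m hm => by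
    by_contra c
    have k1 : ∀ {v}, Iso q v → ∃ b : SU 3 F q, ψ b • x = x ∧ ∃ c : F, b • e = c • v := fun {v} hv => by
      by_cases c' : 𝐡 v e = 0
      · exact ⟨1, by simp, by simpa using iso_par hv.1 hv.2 he.2 (herm_comm_zero c')⟩
      have c0 : 𝐡 (m • e) e ≠ 0 := fun r => c (iso_par he.1 he.2 (he.act m).2 r)
      obtain ⟨-, g, -, g1, g2⟩ := exists_siegel_move (x := m • e) (y := (𝐡 (m • e) e / 𝐡 v e) • v) he.2
        (by rw [herm_smul_left, div_mul_cancel₀ _ c']) c0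
        (by rw [(he.act m).2, (hv.smul (div_ne_zero c0 c')).2])
      exact ⟨g * m, by rw [map_mul, mul_smul, hm, hx g g2], _, by rw [mul_smul, g1]⟩
    obtain ⟨g, g1, -⟩ := h2 x y y x hy.symm hy
    refine hy (g1.symm.trans (show g ∈ (MulAction.stabilizer G x).comap ψ from ?_))
    rw [eq_top_of_siegel_mem (H := (MulAction.stabilizer G x).comap ψ) fun u w a g u0 u1 u2 hg => ?_]
    · trivial
    obtain ⟨b, b1, c, b2⟩ := k1 ⟨u0, u1⟩
    have := hx (b⁻¹ * g * b) (by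
      rw [mul_smul, mul_smul, b2, SU_smul_comm, hg.smul_of_orth u1 (herm_comm_zero u2), ← b2,
        inv_smul_smul])
    rwa [map_mul, map_mul, mul_smul, mul_smul, b1, map_inv, inv_smul_eq_iff, b1] at this
  have h4 : ∀ (m : SU 3 F q) (c : F), m • e = c • e → ψ m • x = x := fun m c hm => by
    by_contra r
    obtain ⟨n, f, hf⟩ := exists_fr he.1 he.2
    have hf' : Iso q f := ⟨fun r => by simpa [r, herm_zero_right] using hf.ef, hf.ff⟩
    obtain ⟨a, ha⟩ := tr he hf'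
    have k1 : ∀ b : SU 3 F q, (∃ c : F, b • e = c • e) → ψ b • x ≠ ψ a • x := fun b ⟨c, hb⟩ r => by
      obtain ⟨c', r'⟩ := h3 (b⁻¹ * a) (by rw [map_mul, mul_smul, ← r, map_inv, inv_smul_smul])
      rw [mul_smul, inv_smul_eq_iff, SU_smul_comm, hb, ha] at r'
      simpa [r', herm_smul_left, he.2] using hf.fe
    obtain ⟨g, g1, g2⟩ := h2 x (ψ m • x) x (ψ a • x) (Ne.symm r) (by simpa using k1 1 ⟨1, by simp⟩)
    obtain ⟨c', g3⟩ := h3 g g1
    exact k1 (g * m) ⟨_, by rw [mul_smul, hm, SU_smul_comm, g3, smul_smul]⟩ (by rwa [map_mul, mul_smul])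
  choose! s hs using fun v (hv : Iso q v) => tr he hv
  have h5 : ∀ (a : SU 3 F q) {v}, Iso q v → ψ a • ψ (s v) • x = ψ (s (a • v)) • x := fun a v hv => by
    have := hx ((s (a • v))⁻¹ * a * s v) (by
      rw [mul_smul, mul_smul, hs v hv, inv_smul_eq_iff, hs _ (hv.act a)])
    rwa [map_mul, map_mul, mul_smul, mul_smul, map_inv, inv_smul_eq_iff] at this
  refine ⟨fun v => ψ (s v) • x, fun {u v} hu hv => ⟨fun r => ?_, fun ⟨c, r⟩ => ?_⟩, fun z => ?_, h5⟩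
  · obtain ⟨c, r'⟩ := h3 ((s u)⁻¹ * s v) (by rw [map_mul, mul_smul, map_inv, inv_smul_eq_iff]; exact r.symm)
    exact ⟨c, by rwa [mul_smul, inv_smul_eq_iff, SU_smul_comm, hs u hu, hs v hv] at r'⟩
  · have := h4 ((s u)⁻¹ * s v) c (by
      rw [mul_smul, inv_smul_eq_iff, SU_smul_comm, hs u hu, hs v hv, r])
    rw [map_mul, mul_smul, map_inv, inv_smul_eq_iff] at this
    exact this.symm
  · obtain ⟨w, hw⟩ := exists_ne z
    obtain ⟨w', hw'⟩ := exists_ne (ψ (s e) • x)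
    obtain ⟨g, g1, -⟩ := h2 _ w' z w hw'.symm hw.symm
    exact ⟨_, he.act g, (h5 g he).symm.trans g1⟩

theorem exists_UM [Finite G] [Finite Ω] (faith : ∀ g : G, (∀ c : Ω, g • c = c) → g = 1) (hq : q ≠ 2)
    {L : Subgroup G} [L.Normal] (φ : L ≃* PSU 3 F q) (hc : Nat.card Ω = q ^ 3 + 1)
    (h2 : ∀ a b c d : Ω, a ≠ b → c ≠ d → ∃ g ∈ L, g • a = c ∧ g • b = d) :
    ∃ (ψ : SU 3 F q →* G) (pt : (Fin 3 → F) → Ω), UM ψ pt := by
  have := hU.finite
  let ψ : SU 3 F q →* G := L.subtype.comp (φ.symm.toMonoidHom.comp (QuotientGroup.mk' _))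
  obtain ⟨pt, p1, p2, p3⟩ := exists_pt ψ hc fun a b c d r r' => by
    obtain ⟨g, hg, k⟩ := h2 a b c d r r'
    obtain ⟨s, hs⟩ := QuotientGroup.mk'_surjective _ (φ ⟨g, hg⟩)
    exact ⟨s, by rwa [show ψ s = g from congrArg Subtype.val (φ.symm_apply_eq.2 hs)]⟩
  refine ⟨ψ, pt, faith, p1, p2, p3, fun g => ?_⟩
  obtain ⟨⟨A, τ⟩, hA⟩ := KSG.psiU_surjective (n := 3) (F := F) (q := q) le_rfl (by simp [hq])
    (φ.symm.trans ((MulAut.conjNormal g).trans φ))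
  have k : ∀ a : SU 3 F q, ∃ b : SU 3 F q, (∀ v, b • KSG.semiPerm A.1 τ v =
      KSG.semiPerm A.1 τ (a • v)) ∧ ψ b = g * ψ a * g⁻¹ := fun a => by
    obtain ⟨b, hb⟩ := KSG.su_norms ⟨A, τ⟩ a
    refine ⟨b, fun v => ((KSG.semiPerm_rel_iff A.1 τ _ _).2 (congrArg Subtype.val hb) v :), ?_⟩
    have := (KSG.eq_psiU_iff _ _).1 hA.symm a b hb
    simp [ψ, ← this]
  have hT : SI q τ (KSG.semiPerm A.1 τ) := ⟨(KSG.isSemi_semiPerm _ _).add,
    (KSG.isSemi_semiPerm _ _).smul, KSG.herm_semiPerm A.2 τ, fun a => (k a).imp fun _ r => r.1⟩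
  refine ⟨τ, _, hT, fun v hv => ?_⟩
  obtain ⟨w, hw, r⟩ := p2 (g • pt v)
  obtain ⟨w, rfl⟩ := (KSG.semiPerm A.1 τ).surjective w
  rw [← r, eq_comm, p1 (hT.iso.2 hv) hw]
  by_contra c
  obtain ⟨a, a1, a2⟩ := exists_move hv (hT.iso.1 hw) fun ⟨l, r⟩ => c ⟨τ l, by rw [r, hT.smul]⟩
  obtain ⟨b, b1, b2⟩ := k a
  obtain ⟨l, hl⟩ := (p1 hw (hw.act b)).1 (by
    rw [← p3 b hw, r, b2, mul_smul, mul_smul, inv_smul_smul, p3 a hv, a1])
  exact a2 ⟨τ.symm l, (KSG.semiPerm A.1 τ).injective (by rw [hT.smul, ← b1, hl]; simp)⟩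

end Cfsg.Agent.HKS.U3
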